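import Cfsg.Agent.E82.M44.Let
import Cfsg.Agent.E82.M44.Ex

/-!
# The pressure machine for `Sp₄(4)`: the checks in the group (helper79)
-/

set_option autoImplicit false
set_option maxRecDepth 100000
set_option Elab.async false

namespace Cfsg.Agent.E82.M44

open Cfsg.Agent.E82.Mach

theorem syn_ok : synOk bs = true := by decide +kernel

theorem ex_ok : exOk4 okW bs ex = true := by decide +kernel

theorem gen_ok : genOk okW 14 C ws = true := by decide +kernel

theorem chk_ok : C.chk okW = true := by decide +kernel

/-- the certificates of the types -/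
def css : List (List (ℕ × ℕ)) := [cs0, cs1, cs2, cs3, cs4, cs5, cs6, cs7, cs8, cs9]

theorem ty_ok : ∀ J < 10, tyOk okW bs ex (ex.pat.getD J 0) (hs.getD J []) (Ms.getD J 0) (css.getD J []) = true := by
  decide +kernel

end Cfsg.Agent.E82.M44
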