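import Cfsg.Agent.E82.M44.Big
import Cfsg.Agent.E82.M44.Ex

/-!
# The pressure machine for `Sp₄(4)`: the checks of the tables of dimension 128 (helper79)
-/

set_option autoImplicit false
set_option maxRecDepth 100000
set_option Elab.async false

namespace Cfsg.Agent.E82.M44

open Cfsg.Agent.E82.Mach

theorem tb7 : tbOk bs (hs.getD 7 []) (Ms.getD 7 0) 128 G7 = true := by decide +kernel

theorem rel7_0 : relOk bs 128 G7 0 16 = true := by decide +kernel

theorem rel7_16 : relOk bs 128 G7 16 16 = true := by decide +kernel

theorem rel7_32 : relOk bs 128 G7 32 16 = true := by decide +kernel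

theorem rel7_48 : relOk bs 128 G7 48 16 = true := by decide +kernel

theorem rel7 : Rel bs 128 G7 0 :=
  Rel.step rel7_0 (Rel.step rel7_16 (Rel.step rel7_32 (Rel.step rel7_48 (Rel.last (by decide)))))

theorem sp7 : spinOk 128 G7 p7 = true := by decide +kernel

theorem sq7 : spinOk 128 (trG G7) q7 = true := by decide +kernel

theorem fx7 : fixOk C 128 G7 (rows.getD 7 []) = true := by decide +kernel

theorem tb8 : tbOk bs (hs.getD 8 []) (Ms.getD 8 0) 128 G8 = true := by decide +kernel

theorem rel8_0 : relOk bs 128 G8 0 16 = true := by decide +kernel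

theorem rel8_16 : relOk bs 128 G8 16 16 = true := by decide +kernel

theorem rel8_32 : relOk bs 128 G8 32 16 = true := by decide +kernel

theorem rel8_48 : relOk bs 128 G8 48 16 = true := by decide +kernel

theorem rel8 : Rel bs 128 G8 0 :=
  Rel.step rel8_0 (Rel.step rel8_16 (Rel.step rel8_32 (Rel.step rel8_48 (Rel.last (by decide)))))

theorem sp8 : spinOk 128 G8 p8 = true := by decide +kernel

theorem sq8 : spinOk 128 (trG G8) q8 = true := by decide +kernel

theorem fx8 : fixOk C 128 G8 (rows.getD 8 []) = true := by decide +kernel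

end Cfsg.Agent.E82.M44
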