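import Cfsg.Agent.E82.M44.St
import Cfsg.Agent.E82.M44.Ex

/-!
# The pressure machine for `Sp₄(4)`: the checks of the table of dimension 256 (helper79)
-/

set_option autoImplicit false
set_option maxRecDepth 100000
set_option Elab.async false

namespace Cfsg.Agent.E82.M44

open Cfsg.Agent.E82.Mach

theorem tb9 : tbOk bs (hs.getD 9 []) (Ms.getD 9 0) 256 G9 = true := by decide +kernel

theorem rel9_0 : relOk bs 256 G9 0 4 = true := by decide +kernel

theorem rel9_4 : relOk bs 256 G9 4 4 = true := by decide +kernel

theorem rel9_8 : relOk bs 256 G9 8 4 = true := by decide +kernel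

theorem rel9_12 : relOk bs 256 G9 12 4 = true := by decide +kernel

theorem rel9_16 : relOk bs 256 G9 16 4 = true := by decide +kernel

theorem rel9_20 : relOk bs 256 G9 20 4 = true := by decide +kernel

theorem rel9_24 : relOk bs 256 G9 24 4 = true := by decide +kernel

theorem rel9_28 : relOk bs 256 G9 28 4 = true := by decide +kernel

theorem rel9_32 : relOk bs 256 G9 32 4 = true := by decide +kernel

theorem rel9_36 : relOk bs 256 G9 36 4 = true := by decide +kernel

theorem rel9_40 : relOk bs 256 G9 40 4 = true := by decide +kernel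

theorem rel9_44 : relOk bs 256 G9 44 4 = true := by decide +kernel

theorem rel9_48 : relOk bs 256 G9 48 4 = true := by decide +kernel

theorem rel9_52 : relOk bs 256 G9 52 4 = true := by decide +kernel

theorem rel9_56 : relOk bs 256 G9 56 4 = true := by decide +kernel

theorem rel9_60 : relOk bs 256 G9 60 4 = true := by decide +kernel

theorem rel9 : Rel bs 256 G9 0 :=
  Rel.step rel9_0 (Rel.step rel9_4 (Rel.step rel9_8 (Rel.step rel9_12 (Rel.step rel9_16 (Rel.step rel9_20 (Rel.step rel9_24 (Rel.step rel9_28 (Rel.step rel9_32 (Rel.step rel9_36 (Rel.step rel9_40 (Rel.step rel9_44 (Rel.step rel9_48 (Rel.step rel9_52 (Rel.step rel9_56 (Rel.step rel9_60 (Rel.last (by decide)))))))))))))))))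

theorem sp9 : spinOk 256 G9 p9 = true := by decide +kernel

theorem sq9 : spinOk 256 (trG G9) q9 = true := by decide +kernel

end Cfsg.Agent.E82.M44
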