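import Cfsg.Agent.E82.M44.ChkA
import Cfsg.Agent.E82.M44.ChkB
import Cfsg.Agent.E82.M44.ChkC
import Cfsg.Agent.E82.M44.ChkD

/-!
# The pressure machine for `Sp₄(4)`: the simple modules (helper79)

* `classify` : a simple family is the family of one of the ten tables; `tab44`, `sol44`, `soc44` : the invariants;
* `num44` : the six solutions.
-/

set_option autoImplicit false
set_option maxRecDepth 100000

namespace Cfsg.Agent.E82.M44

open Module Cfsg.Agent.E82.Mach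

/-- the dimensions -/
def dn (J : ℕ) : ℕ := [1, 8, 8, 16, 16, 32, 32, 128, 128, 256].getD J 0

/-- the tables -/
def GG (J : ℕ) : List (List (ℕ × ℕ)) := [G0, G1, G2, G3, G4, G5, G6, G7, G8, G9].getD J []

theorem tb_all {J : ℕ} (hJ : J < 10) : tbOk bs (hs.getD J []) (Ms.getD J 0) (dn J) (GG J) = true ∧
    Rel bs (dn J) (GG J) 0 ∧ ∃ p q, spinOk (dn J) (GG J) p = true ∧ spinOk (dn J) (trG (GG J)) q = true := by
  interval_cases J
  · exact ⟨tb0, rel0, _, _, sp0, sq0⟩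
  · exact ⟨tb1, rel1, _, _, sp1, sq1⟩
  · exact ⟨tb2, rel2, _, _, sp2, sq2⟩
  · exact ⟨tb3, rel3, _, _, sp3, sq3⟩
  · exact ⟨tb4, rel4, _, _, sp4, sq4⟩
  · exact ⟨tb5, rel5, _, _, sp5, sq5⟩
  · exact ⟨tb6, rel6, _, _, sp6, sq6⟩
  · exact ⟨tb7, rel7, _, _, sp7, sq7⟩
  · exact ⟨tb8, rel8, _, _, sp8, sq8⟩
  · exact ⟨tb9, rel9, _, _, sp9, sq9⟩

theorem wf_GG {J : ℕ} (hJ : J < 10) : wfG (dn J) (GG J) = true := by
  have h := (tb_all hJ).1
  simp only [tbOk, Bool.and_eq_true] at h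
  exact h.1.1.1.1

/-- **the simple modules** -/
theorem classify {V : Type*} [AddCommGroup V] [Module F2 V] {a : ℕ → End F2 V} (ha : Good okW 14 a) (hs : Simple a) :
    ∃ J < 10, ∃ e : V ≃ₗ[F2] X (dn J), Hom a (ops (dn J) (GG J)) e := by
  obtain ⟨⟨P, hP, x, hx, hE⟩, l, hl, hi⟩ := exists_ev ex_ok ha.rel hs.1
  obtain ⟨J, hJ, rfl⟩ := List.getElem_of_mem hP
  have hJ' : J < 10 := hJ
  have h1 := ty_ok J hJ'
  rw [List.getD_eq_getElem _ _ hJ] at h1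
  obtain ⟨t1, t2, p, q, t3, t4⟩ := tb_all hJ'
  exact ⟨J, hJ', tb_iso syn_ok t1 t2 t3 t4 hs hx (hE.wv ex_ok ha h1) hl hi⟩

/-- the dimensions of the fixed spaces -/
def FF (J k : ℕ) : ℕ := (rows.getD J []).getD (min k C.cl.length) 0

/-- the bounds for the solutions of the Fox equations -/
def ZZ (J : ℕ) : ℕ := [0, 2, 2, 0, 0, 0, 0, 128, 128].getD J 0

theorem fz_all {J : ℕ} (hJ : J < 9) : fixOk C (dn J) (GG J) (rows.getD J []) = true ∧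
    dn J ≤ zRk (dn J) (GG J) C.g C.h C.R + ZZ J := by
  interval_cases J
  · exact ⟨fx0, Nat.ble_eq.mp zz0⟩
  · exact ⟨fx1, Nat.ble_eq.mp zz1⟩
  · exact ⟨fx2, Nat.ble_eq.mp zz2⟩
  · exact ⟨fx3, Nat.ble_eq.mp zz3⟩
  · exact ⟨fx4, Nat.ble_eq.mp zz4⟩
  · exact ⟨fx5, Nat.ble_eq.mp zz5⟩
  · exact ⟨fx6, Nat.ble_eq.mp zz6⟩
  · exact ⟨fx7, Nat.le_add_left 128 _⟩
  · exact ⟨fx8, Nat.le_add_left 128 _⟩

theorem ent44 {M : Type} [AddCommGroup M] [Module F2 M] {a : ℕ → End F2 M} {J : ℕ} (hJ : J < 9) (e : M ≃ₗ[F2] X (dn J))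
    (he : Hom a (ops (dn J) (GG J)) e) : (∀ k, C.f a k = FF J k) ∧ C.z a ≤ ZZ J := by
  have hG := wf_GG (J := J) (by omega)
  obtain ⟨h4, h5⟩ := fz_all hJ
  refine ⟨fun k => ?_, ?_⟩
  · have e1 : C.cl.getD k ([], 1) = C.cl.getD (min k C.cl.length) ([], 1) := by
      rcases le_total k C.cl.length with h | h
      · rw [min_eq_left h]
      · rw [min_eq_right h, List.getD_eq_default _ _ h, List.getD_eq_default _ _ le_rfl]
    have e2 := Nat.eq_of_beq_eq_true (List.all_eq_true.1 h4 (min k C.cl.length) (List.mem_range.2 (by omega)))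
    have e3 := fxRk_eq hG (C.cl.getD (min k C.cl.length) ([], 1)).1
    rw [Cls.f, e1, finrank_Fx_equiv e (he.wd _), FF]
    omega
  · have e2 := zRk_le hG C.g C.h C.R
    rw [Cls.z, finrank_Z0_equiv e (he.wd _) (he.wd _)]
    omega

theorem classify9 {V : Type} [AddCommGroup V] [Module F2 V] {a : ℕ → End F2 V} (ha : Good okW 14 a) (hs : Simple a)
    (hd : finrank F2 V ≤ 248) : ∃ J < 9, ∃ e : V ≃ₗ[F2] X (dn J), Hom a (ops (dn J) (GG J)) e := by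
  obtain ⟨J, hJ, e, he⟩ := classify ha hs
  refine ⟨J, lt_of_le_of_ne (Nat.le_of_lt_succ hJ) fun h => ?_, e, he⟩
  have h1 := e.finrank_eq
  rw [Module.finrank_fin_fun, h] at h1
  have h2 : dn 9 = 256 := rfl
  omega

theorem tab44 : Tab okW 14 248 C 9 FF ZZ := by
  intro M _ _ _ a ha hs hd
  obtain ⟨J, hJ, e, he⟩ := classify9 ha hs hd
  exact ⟨J, hJ, ent44 hJ e he⟩

section

variable {V : Type} [AddCommGroup V] [Module F2 V] [FiniteDimensional F2 V] {a : ℕ → End F2 V}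

theorem sol44 (ha : Good okW 14 a) (hd : finrank F2 V ≤ 248) : ∃ n, Sol C 9 FF ZZ a n := sol chk_ok tab44 _ V a rfl hd ha

/-- the subspace contains the module of a table -/
def Has (a : ℕ → End F2 V) (U : Submodule F2 V) (n : ℕ) (G : List (List (ℕ × ℕ))) : Prop :=
  ∃ e : X n →ₗ[F2] V, Function.Injective e ∧ Hom (ops n G) a e ∧ ∀ x, e x ∈ U

/-- a simple submodule is a composition factor -/
theorem soc44 (ha : Good okW 14 a) (hd : finrank F2 V ≤ 248) {U : Submodule F2 V} (hU : Inv a U) (h0 : U ≠ ⊥) :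
    ∃ J < 9, Has a U (dn J) (GG J) ∧ ∃ n, 1 ≤ n J ∧ Sol C 9 FF ZZ a n := by
  obtain ⟨W, hW, hle, hs⟩ := exists_simple a hU h0
  have e0 := Submodule.finrank_quotient_add_finrank W
  obtain ⟨J, hJ, e, he⟩ := classify9 (ha.of_inj (hom_sub a W hW) W.injective_subtype) hs (by omega)
  obtain ⟨h1, h2⟩ := ent44 hJ e he
  obtain ⟨n', h3⟩ := sol44 (ha.of_surj (hom_quo a W hW) W.mkQ_surjective) (by omega)
  refine ⟨J, hJ, ⟨W.subtype ∘ₗ e.symm.toLinearMap, W.injective_subtype.comp e.symm.injective, fun j v => ?_,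
    fun x => hle (e.symm x).2⟩, Pi.single J 1 + n', ?_, Sol.add chk_ok ha (hW := hW) ⟨fun k => ?_, ?_⟩ h3⟩
  · have h4 : e.symm (ops (dn J) (GG J) j v) = subOp a W hW j (e.symm v) := by
      rw [LinearEquiv.symm_apply_eq]
      exact ((he j _).trans (congrArg _ (e.apply_symm_apply v))).symm
    exact congrArg Subtype.val h4
  · rw [Pi.add_apply, Pi.single_eq_same]
    exact Nat.le_add_right _ _
  · rw [h1, Finset.sum_eq_single J (fun b _ hb => by rw [Pi.single_eq_of_ne hb, zero_mul])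
      (fun hb => absurd (Finset.mem_range.2 hJ) hb), Pi.single_eq_same, one_mul]
  · rw [Finset.sum_eq_single J (fun b _ hb => by rw [Pi.single_eq_of_ne hb, zero_mul])
      (fun hb => absurd (Finset.mem_range.2 hJ) hb), Pi.single_eq_same, one_mul]
    exact h2

omit [FiniteDimensional F2 V] in
theorem sol_eqs {n : ℕ → ℕ} (h : Sol C 9 FF ZZ a n) :
    C.f a 0 = n 0 + 4 * n 1 + 6 * n 3 + 8 * n 4 + 8 * n 5 + 8 * n 6 + 40 * n 7 + 48 * n 8 ∧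
    C.f a 1 = n 0 + 4 * n 2 + 8 * n 3 + 6 * n 4 + 8 * n 5 + 8 * n 6 + 48 * n 7 + 40 * n 8 ∧
    C.f a 2 = n 0 + 4 * n 1 + 4 * n 3 + 8 * n 5 + 24 * n 7 + 16 * n 8 ∧
    C.f a 3 = n 0 + 4 * n 2 + 4 * n 4 + 8 * n 6 + 16 * n 7 + 24 * n 8 ∧
    C.f a 4 = n 0 + 4 * n 3 + 4 * n 4 + 8 * n 5 + 8 * n 6 + 24 * n 7 + 24 * n 8 ∧
    C.f a 5 = n 0 + 8 * n 7 + 8 * n 8 ∧
    C.f a 6 = n 0 + 8 * n 1 + 8 * n 2 + 16 * n 3 + 16 * n 4 + 32 * n 5 + 32 * n 6 + 128 * n 7 + 128 * n 8 ∧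
    C.z a ≤ 2 * n 1 + 2 * n 2 + 128 * n 7 + 128 * n 8 := by
  have key : ∀ (F : ℕ → ℕ) (c0 c1 c2 c3 c4 c5 c6 c7 c8 : ℕ), (List.range 9).map F = [c0, c1, c2, c3, c4, c5, c6, c7, c8] →
      ∑ J ∈ Finset.range 9, n J * F J = n 0 * c0 + n 1 * c1 + n 2 * c2 + n 3 * c3 + n 4 * c4 + n 5 * c5 + n 6 * c6 +
        n 7 * c7 + n 8 * c8 := by
    intro F c0 c1 c2 c3 c4 c5 c6 c7 c8 e
    have e' : [F 0, F 1, F 2, F 3, F 4, F 5, F 6, F 7, F 8] = [c0, c1, c2, c3, c4, c5, c6, c7, c8] := e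
    simp only [List.cons.injEq, and_true] at e'
    obtain ⟨rfl, rfl, rfl, rfl, rfl, rfl, rfl, rfl, rfl⟩ := e'
    simp only [Finset.sum_range_succ, Finset.sum_range_zero, zero_add]
  have e0 := (h.1 0).trans (key (FF · 0) 1 4 0 6 8 8 8 40 48 (by decide))
  have e1 := (h.1 1).trans (key (FF · 1) 1 0 4 8 6 8 8 48 40 (by decide))
  have e2 := (h.1 2).trans (key (FF · 2) 1 4 0 4 0 8 0 24 16 (by decide))
  have e3 := (h.1 3).trans (key (FF · 3) 1 0 4 0 4 0 8 16 24 (by decide))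
  have e4 := (h.1 4).trans (key (FF · 4) 1 0 0 4 4 8 8 24 24 (by decide))
  have e5 := (h.1 5).trans (key (FF · 5) 1 0 0 0 0 0 0 8 8 (by decide))
  have e6 := (h.1 6).trans (key (FF · 6) 1 8 8 16 16 32 32 128 128 (by decide))
  have e7 := h.2.trans (key ZZ 0 2 2 0 0 0 0 128 128 (by decide)).le
  omega

end

/-- the six solutions: the multiplicities, the dimensions for `y₁ y₃ x₁ x₃ x₅` and the element of order 17 -/
def SOL : List (List ℕ × List ℕ) :=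
  [([32, 1, 8, 8, 1, 0, 0, 0, 0], [92, 134, 68, 68, 68, 32]), ([32, 8, 1, 1, 8, 0, 0, 0, 0], [134, 92, 68, 68, 68, 32]),
    ([16, 9, 4, 4, 0, 0, 2, 0, 0], [92, 80, 68, 48, 48, 16]), ([16, 4, 9, 0, 4, 2, 0, 0, 0], [80, 92, 48, 68, 48, 16]),
    ([8, 2, 4, 0, 2, 1, 0, 1, 0], [80, 92, 48, 48, 48, 16]), ([8, 4, 2, 2, 0, 0, 1, 0, 1], [92, 80, 48, 48, 48, 16])]

/-- a bounded quantifier with a condition -/
noncomputable def alc (m : ℕ) (c p : ℕ → Bool) : Bool :=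
  Nat.rec (motive := fun _ => Bool) true (fun i ih => cond (c i) (p i && ih) ih) m

theorem alc_spec {m : ℕ} {c p : ℕ → Bool} (h : alc m c p = true) {i : ℕ} (hi : i < m) (hc : c i = true) : p i = true := by
  induction m with
  | zero => exact absurd hi (Nat.not_lt_zero _)
  | succ m ih =>
    have h' : cond (c m) (p m && alc m c p) (alc m c p) = true := h
    rcases Nat.lt_succ_iff_lt_or_eq.1 hi with h1 | rfl
    · refine ih ?_ h1
      cases e : c m with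
      | false => rwa [e] at h'
      | true => rw [e, cond_true, Bool.and_eq_true] at h'; exact h'.2
    · rw [hc, cond_true, Bool.and_eq_true] at h'
      exact h'.1

/-- one of two values -/
def two (x a b : ℕ) : Bool := Nat.beq x a || Nat.beq x b

theorem two_of {x a b : ℕ} (h : x = a ∨ x = b) : two x a b = true := by
  rw [two, Bool.or_eq_true, Nat.beq_eq, Nat.beq_eq]
  exact h

theorem num_aux : (alc 2 (fun _ => true) fun n7 => alc 2 (fun _ => true) fun n8 =>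
    alc 33 (fun n0 => two (n0 + 8 * n7 + 8 * n8) 16 32) fun n0 => alc 8 (fun _ => true) fun n5 => alc 8 (fun _ => true) fun n6 =>
    alc 16 (fun n3 => Nat.ble (n0 + 4 * n3 + 8 * n5 + 8 * n6 + 24 * n7 + 24 * n8) 68) fun n3 =>
    alc 16 (fun n4 => two (n0 + 4 * n3 + 4 * n4 + 8 * n5 + 8 * n6 + 24 * n7 + 24 * n8) 68 48) fun n4 =>
    alc 18 (fun n1 => two (n0 + 4 * n1 + 4 * n3 + 8 * n5 + 24 * n7 + 16 * n8) 68 48) fun n1 =>
    alc 18 (fun n2 => two (n0 + 4 * n2 + 4 * n4 + 8 * n6 + 16 * n7 + 24 * n8) 68 48 &&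
      (Nat.beq (n0 + 8 * n1 + 8 * n2 + 16 * n3 + 16 * n4 + 32 * n5 + 32 * n6 + 128 * n7 + 128 * n8) 248 &&
      [(134, 92), (80, 92), (92, 134), (92, 80), (86, 86)].contains
        (n0 + 4 * n1 + 6 * n3 + 8 * n4 + 8 * n5 + 8 * n6 + 40 * n7 + 48 * n8,
          n0 + 4 * n2 + 8 * n3 + 6 * n4 + 8 * n5 + 8 * n6 + 48 * n7 + 40 * n8))) fun n2 =>
    SOL.contains ([n0, n1, n2, n3, n4, n5, n6, n7, n8], [n0 + 4 * n1 + 6 * n3 + 8 * n4 + 8 * n5 + 8 * n6 + 40 * n7 + 48 * n8,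
      n0 + 4 * n2 + 8 * n3 + 6 * n4 + 8 * n5 + 8 * n6 + 48 * n7 + 40 * n8,
      n0 + 4 * n1 + 4 * n3 + 8 * n5 + 24 * n7 + 16 * n8, n0 + 4 * n2 + 4 * n4 + 8 * n6 + 16 * n7 + 24 * n8,
      n0 + 4 * n3 + 4 * n4 + 8 * n5 + 8 * n6 + 24 * n7 + 24 * n8, n0 + 8 * n7 + 8 * n8])) = true := by
  decide +kernel

/-- **the six solutions** -/
theorem num44 {n0 n1 n2 n3 n4 n5 n6 n7 n8 y1 y3 x1 x3 x5 s : ℕ}
    (e0 : y1 = n0 + 4 * n1 + 6 * n3 + 8 * n4 + 8 * n5 + 8 * n6 + 40 * n7 + 48 * n8)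
    (e1 : y3 = n0 + 4 * n2 + 8 * n3 + 6 * n4 + 8 * n5 + 8 * n6 + 48 * n7 + 40 * n8)
    (e2 : x1 = n0 + 4 * n1 + 4 * n3 + 8 * n5 + 24 * n7 + 16 * n8)
    (e3 : x3 = n0 + 4 * n2 + 4 * n4 + 8 * n6 + 16 * n7 + 24 * n8)
    (e4 : x5 = n0 + 4 * n3 + 4 * n4 + 8 * n5 + 8 * n6 + 24 * n7 + 24 * n8) (e5 : s = n0 + 8 * n7 + 8 * n8)
    (e6 : 248 = n0 + 8 * n1 + 8 * n2 + 16 * n3 + 16 * n4 + 32 * n5 + 32 * n6 + 128 * n7 + 128 * n8)
    (hy : (y1, y3) ∈ [(134, 92), (80, 92), (92, 134), (92, 80), (86, 86)])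
    (h1 : x1 = 68 ∨ x1 = 48) (h3 : x3 = 68 ∨ x3 = 48) (h5 : x5 = 68 ∨ x5 = 48) (hs : s = 16 ∨ s = 32) :
    ([n0, n1, n2, n3, n4, n5, n6, n7, n8], [y1, y3, x1, x3, x5, s]) ∈ SOL := by
  have b1 : x1 ≤ 68 := h1.elim (fun h => h.le) fun h => h.le.trans (by decide)
  have b3 : x3 ≤ 68 := h3.elim (fun h => h.le) fun h => h.le.trans (by decide)
  have b5 : x5 ≤ 68 := h5.elim (fun h => h.le) fun h => h.le.trans (by decide)
  have bs : s ≤ 32 := hs.elim (fun h => h.le.trans (by decide)) fun h => h.le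
  have m1 := two_of h1
  have m3 := two_of h3
  have m5 := two_of h5
  have ms := two_of hs
  clear h1 h3 h5 hs
  subst e0 e1 e2 e3 e4 e5
  have c : n7 < 2 ∧ n8 < 2 ∧ n0 < 33 ∧ n5 < 8 ∧ n6 < 8 ∧ n3 < 16 ∧ n4 < 16 ∧ n1 < 18 ∧ n2 < 18 ∧
      n0 + 4 * n3 + 8 * n5 + 8 * n6 + 24 * n7 + 24 * n8 ≤ 68 := by
    clear hy m1 m3 m5 ms
    refine ⟨?_, ?_, ?_, ?_, ?_, ?_, ?_, ?_, ?_, ?_⟩ <;> omega
  obtain ⟨c7, c8, c0, c5, c6, c3, c4, c1, c2, c9⟩ := c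
  exact List.contains_iff_mem.1 (alc_spec (alc_spec (alc_spec (alc_spec (alc_spec (alc_spec (alc_spec (alc_spec (alc_spec num_aux
    c7 rfl) c8 rfl) c0 ms) c5 rfl) c6 rfl) c3 (Nat.ble_eq.mpr c9)) c4 m5) c1 m1) c2
      (by rw [m3, Bool.true_and, ← e6, List.contains_iff_mem.2 hy]; rfl))

end Cfsg.Agent.E82.M44
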