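import Cfsg.Agent.E82.M44.Row
import Cfsg.Agent.E82.Soc.B5
import Cfsg.Agent.E82.F5.Row44G

/-!
# S3369: the row `Sp₄(4)` (helper79)
-/

set_option autoImplicit false
set_option maxRecDepth 100000

namespace Cfsg.Agent.E82.M44

theorem soc_B : Soc.SocB := fun f hf h1 h3 => by
  by_cases hx : Fixd f
  · exact Or.inl hx
  · exact Or.inr ⟨rho f, rho_apply f, fun U hU h0 => (socB hf (rho_apply f) h1 h3 hU h0).resolve_left hx⟩

theorem caseB : F5.CaseB Grp.ph := Soc.caseB_of soc_B

theorem rowSp44 : ROW Grp.S44 := F5.rowSp44_of caseB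

end Cfsg.Agent.E82.M44
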