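import Cfsg.Agent.E82.M44.Cls
import Cfsg.Agent.E82.Cls
import Cfsg.Agent.E82.Par

/-!
# The pressure machine for `Sp₄(4)`: the output (helper79)

With `y₁ = ph 0 b5`, `y₃ = ph 2 b5`, `x₁ = ph 0 x5`, `x₃ = ph 2 x5`, `x₅ = ph 0 x5 * ph 1 x5 ^ 2`:

* `types` : the dimensions of the fixed spaces; `rowA` : `cf x₁ = cf x₃ = 68` gives a fixed vector;
* `socB`, `socB'` : the simple submodules for `(68, 48)` and `(48, 68)`.
-/

set_option autoImplicit false
set_option maxRecDepth 100000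

namespace Cfsg.Agent.E82.M44

open Cfsg Cfsg.Lie Module Cfsg.Agent.E82.Mach Cfsg.Agent.E82.Grp
open Cfsg.Agent.H939.L64 (E2 L2)
open Cfsg.Agent.E8A (act)
open Cfsg.Agent.Lib.VonDyck (a5 b5)
open Cfsg.Agent.E82.F5 (x5 w5)

variable {f : S44 →* E2} {ρ : S44 →* End F2 L2}

/-- the action on the rational module -/
noncomputable def rho (f : S44 →* E2) : S44 →* End F2 L2 where
  toFun s := Matrix.mulVecLin ((f s : GL chevE8.Idx (ZMod 2)) : Matrix chevE8.Idx chevE8.Idx (ZMod 2))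
  map_one' := LinearMap.ext fun v => by rw [map_one]; exact Cfsg.Agent.E8A.act_one v
  map_mul' := fun a b => LinearMap.ext fun v => by rw [map_mul]; exact Cfsg.Agent.E8A.act_mul _ _ v

theorem rho_apply (f : S44 →* E2) (s : S44) (v : L2) : rho f s v = act (f s) v := rfl

theorem fx_cf (hρ : ∀ s v, ρ s v = act (f s) v) {w : List ℕ} (hw : inR 14 w = true) :
    finrank F2 (Fx (wd (opR ρ sg 14) w)) = cf (f (pw sg w)) := by
  rw [wd_opR ρ sg (inR_lt hw), ← fd_two (f (pw sg w)) (ρ (pw sg w)) (hρ _), Fx, LinearMap.eqLocus_eq_ker_sub]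

theorem cf_conj (f : S44 →* E2) {s t : S44} (h : IsConj s t) : cf (f s) = cf (f t) := by
  obtain ⟨u, rfl⟩ := isConj_iff.1 h
  rw [map_mul, map_mul, map_inv, fd_conj]

theorem dim_L2 (f : S44 →* E2) : finrank F2 L2 = 248 := by
  have h := fx_cf (rho_apply f) (w := []) rfl
  rwa [wd_nil, Fx_one, finrank_top, pw_nil, map_one, fd_one] at h

theorem x5_eq : ph 0 x5 * ph 1 x5 ^ 2 = G 3289595955 := by
  rw [ph_x, ph_x, pow_two]
  simpa [mul_assoc] using prod_eq [nX 0, nX 1, nX 1] [3289595955] (by decide +kernel)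

theorem f_eqs (hρ : ∀ s v, ρ s v = act (f s) v) : C.f (opR ρ sg 14) 0 = cf (f (ph 0 b5)) ∧
    C.f (opR ρ sg 14) 1 = cf (f (ph 2 b5)) ∧ C.f (opR ρ sg 14) 2 = cf (f (ph 0 x5)) ∧
    C.f (opR ρ sg 14) 3 = cf (f (ph 2 x5)) ∧ C.f (opR ρ sg 14) 4 = cf (f (ph 0 x5 * ph 1 x5 ^ 2)) ∧
    C.f (opR ρ sg 14) 5 = cf (f (G 274222412)) ∧ C.f (opR ρ sg 14) 6 = 248 := by
  refine ⟨(fx_cf hρ (w := [13]) rfl).trans (cf_conj f ?_), (fx_cf hρ (w := [12]) rfl).trans (cf_conj f ?_),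
    (fx_cf hρ (w := [11, 2]) rfl).trans (cf_conj f ?_), (fx_cf hρ (w := [9, 0]) rfl).trans (cf_conj f ?_),
    (fx_cf hρ (w := [10, 8, 2, 0]) rfl).trans (cf_conj f ?_), (fx_cf hρ (w := [11, 8, 2, 0]) rfl).trans ?_,
    (fx_cf hρ (w := []) rfl).trans ?_⟩
  · rw [pw_G (a := 3222276097) (by decide +kernel), ph_b]
    exact isConj 843059460 (by decide +kernel)
  · rw [pw_G (a := 2150632450) (by decide +kernel), ph_b]
    exact isConj 1442461675 (by decide +kernel)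
  · rw [pw_G (a := 1209027585) (by decide +kernel), ph_x]
    exact isConj 549454600 (by decide +kernel)
  · rw [pw_G (a := 3499099655) (by decide +kernel), ph_x]
    exact isConj 173065633 (by decide +kernel)
  · rw [pw_G (a := 273957184) (by decide +kernel), x5_eq]
    exact isConj 3354285411 (by decide +kernel)
  · rw [pw_G (a := 274222412) (by decide +kernel)]
  · rw [pw_nil, map_one, fd_one]

theorem ord_of (hf : Function.Injective f) {a n : ℕ} (h1 : chk (List.replicate n a) [] = true) (h2 : okb a = true)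
    (h3 : mt a ≠ mt one) : f (G a) ^ n = 1 ∧ f (G a) ≠ 1 :=
  ⟨by rw [← map_pow, pow_eq_one n h1, map_one], fun e => ne_one h2 h3 (hf (e.trans (map_one f).symm))⟩

theorem y_pair (hf : Function.Injective f) :
    (cf (f (ph 0 b5)), cf (f (ph 2 b5))) ∈ [(134, 92), (80, 92), (92, 134), (92, 80), (86, 86)] := by
  have o : ∀ i, f (ph i b5) ^ 3 = 1 ∧ f (ph i b5) ≠ 1 := fun i => by
    have h : ∀ i, okb (nB i) = true ∧ mt (nB i) ≠ mt one := by decide +kernel
    rw [ph_b]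
    exact ord_of hf (chk_all i).2.1 (h i).1 (h i).2
  have hp := par (o 0).1 (o 1).1 ((c01 b5 b5).map f)
  rw [← map_inv, ← map_mul, ← map_mul, cf_conj f ym, cf_conj f yd, ← cf_conj f y01] at hp
  rcases fd3 (o 0).1 (o 0).2 with a | a | a | a <;> rcases fd3 (o 2).1 (o 2).2 with b | b | b | b <;>
    rw [a, b] at hp ⊢ <;> revert hp <;> decide

theorem sol_mem (hf : Function.Injective f) (hρ : ∀ s v, ρ s v = act (f s) v) {n : ℕ → ℕ}
    (h : Sol C 9 FF ZZ (opR ρ sg 14) n) : ([n 0, n 1, n 2, n 3, n 4, n 5, n 6, n 7, n 8],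
      [cf (f (ph 0 b5)), cf (f (ph 2 b5)), cf (f (ph 0 x5)), cf (f (ph 2 x5)), cf (f (ph 0 x5 * ph 1 x5 ^ 2)),
        cf (f (G 274222412))]) ∈ SOL := by
  obtain ⟨e0, e1, e2, e3, e4, e5, e6, -⟩ := sol_eqs h
  obtain ⟨a0, a1, a2, a3, a4, a5, a6⟩ := f_eqs hρ
  have o : ∀ i, cf (f (ph i x5)) = 68 ∨ cf (f (ph i x5)) = 48 := fun i => by
    have h := ord_of hf (chk_all i).2.2.2.1 (chk_all i).2.2.2.2.2.2.2.1 (chk_all i).2.2.2.2.2.2.2.2
    rw [ph_x]
    exact fd5 h.1 h.2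
  have o5 := ord_of hf (a := 3289595955) (n := 5) (by decide +kernel) (by decide +kernel) (by decide +kernel)
  have o17 := ord_of hf (a := 274222412) (n := 17) (by decide +kernel) (by decide +kernel) (by decide +kernel)
  exact num44 (a0.symm.trans e0) (a1.symm.trans e1) (a2.symm.trans e2) (a3.symm.trans e3) (a4.symm.trans e4)
    (a5.symm.trans e5) (a6.symm.trans e6) (y_pair hf) (o 0) (o 2) (x5_eq ▸ fd5 o5.1 o5.2) (fd17 o17.1 o17.2)

/-- **the dimensions of the fixed spaces of `y₁ y₃ x₁ x₃ x₅`** -/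
theorem types (hf : Function.Injective f) :
    [cf (f (ph 0 b5)), cf (f (ph 2 b5)), cf (f (ph 0 x5)), cf (f (ph 2 x5)), cf (f (ph 0 x5 * ph 1 x5 ^ 2))] ∈
      [[92, 134, 68, 68, 68], [134, 92, 68, 68, 68], [92, 80, 68, 48, 48], [80, 92, 48, 68, 48], [80, 92, 48, 48, 48],
        [92, 80, 48, 48, 48]] := by
  obtain ⟨n, hn⟩ := sol44 (good (rho f)) (dim_L2 f).le
  have h := sol_mem hf (rho_apply f) hn
  simp only [SOL, List.mem_cons, Prod.mk.injEq, List.cons.injEq, and_true, List.not_mem_nil, or_false] at h ⊢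
  rcases h with h | h | h | h | h | h <;> obtain ⟨-, a, b, c, d, e, -⟩ := h <;> rw [a, b, c, d, e] <;> decide

theorem fixd_of (hρ : ∀ s v, ρ s v = act (f s) v) {v : L2} (h0 : v ≠ 0) (h : ∀ j < 14, opR ρ sg 14 j v = v) : Fixd f := by
  let M : Subgroup S44 :=
    { carrier := {s | ρ s v = v}
      mul_mem' := fun {a b} ha hb => by
        show ρ (a * b) v = v
        rw [map_mul, End.mul_apply, show ρ b v = v from hb, show ρ a v = v from ha]
      one_mem' := by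
        show ρ 1 v = v
        rw [map_one, End.one_apply]
      inv_mem' := fun {a} ha => by
        show ρ a⁻¹ v = v
        conv_lhs => rw [← show ρ a v = v from ha]
        rw [← End.mul_apply, ← map_mul, inv_mul_cancel, map_one, End.one_apply] }
  have h1 : M = ⊤ := sg_gen fun j hj => by
    have := h j hj
    rwa [opR, if_pos hj] at this
  exact fixd_of_L2 h0 fun s => (hρ s v).symm.trans (h1 ▸ Subgroup.mem_top s : s ∈ M)

/-- **row A** -/
theorem rowA (hf : Function.Injective f) (h1 : cf (f (ph 0 x5)) = 68) (h3 : cf (f (ph 2 x5)) = 68) : Fixd f := by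
  obtain ⟨n, hn⟩ := sol44 (good (rho f)) (dim_L2 f).le
  rcases press gen_ok (good (rho f)) with ⟨v, h0, hv⟩ | hp
  · exact fixd_of (rho_apply f) h0 hv
  · exfalso
    have h := sol_mem hf (rho_apply f) hn
    have e5 := (sol_eqs hn).2.2.2.2.2.1
    have e7 := (sol_eqs hn).2.2.2.2.2.2.2
    have hp' : C.f (opR (rho f) sg 14) 5 ≤ C.z (opR (rho f) sg 14) := hp
    simp only [SOL, List.mem_cons, Prod.mk.injEq, List.cons.injEq, and_true, List.not_mem_nil, or_false] at h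
    rcases h with h | h | h | h | h | h <;> obtain ⟨⟨a0, a1, a2, -, -, -, -, a7, a8⟩, -, -, c, d, -, -⟩ := h <;> omega

theorem fixd_of_has (hρ : ∀ s v, ρ s v = act (f s) v) {U : Submodule F2 L2} (h : Has (opR ρ sg 14) U 1 G0) : Fixd f := by
  obtain ⟨e, h1, h2, -⟩ := h
  refine fixd_of hρ (v := e fun _ => 1) (fun h => one_ne_zero (congrFun (h1 (h.trans (map_zero e).symm)) 0)) fun j hj => ?_
  rw [← h2]
  have e1 : G0[j]? = some [] := by
    have h : ∀ j < 14, G0[j]? = some [] := by decide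
    exact h j hj
  rw [ops, e1]
  exact congrArg e (LinearMap.congr_fun (add_zero (1 : End F2 (X 1))) _)

/-- **the simple submodules for `cf x₁ = 68`, `cf x₃ = 48`** -/
theorem socB (hf : Function.Injective f) (hρ : ∀ s v, ρ s v = act (f s) v) (h1 : cf (f (ph 0 x5)) = 68)
    (h3 : cf (f (ph 2 x5)) = 48) {U : Submodule F2 L2} (hU : Inv (opR ρ sg 14) U) (h0 : U ≠ ⊥) :
    Fixd f ∨ Has (opR ρ sg 14) U 8 G1 ∨ Has (opR ρ sg 14) U 8 G2 ∨ Has (opR ρ sg 14) U 16 G3 ∨ Has (opR ρ sg 14) U 32 G6 := by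
  obtain ⟨J, hJ, hH, n, hn1, hn⟩ := soc44 (good ρ) (dim_L2 f).le hU h0
  have h := sol_mem hf hρ hn
  simp only [SOL, List.mem_cons, Prod.mk.injEq, List.cons.injEq, and_true, List.not_mem_nil, or_false] at h
  have h4 : n 4 = 0 ∧ n 5 = 0 ∧ n 7 = 0 ∧ n 8 = 0 := by
    rcases h with h | h | h | h | h | h <;> obtain ⟨⟨-, -, -, -, a4, a5, -, a7, a8⟩, -, -, c, d, -, -⟩ := h <;> omega
  interval_cases J
  · exact Or.inl (fixd_of_has hρ hH)
  · exact Or.inr (Or.inl hH)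
  · exact Or.inr (Or.inr (Or.inl hH))
  · exact Or.inr (Or.inr (Or.inr (Or.inl hH)))
  · omega
  · omega
  · exact Or.inr (Or.inr (Or.inr (Or.inr hH)))
  · omega
  · omega

/-- **the simple submodules for `cf x₁ = 48`, `cf x₃ = 68`** -/
theorem socB' (hf : Function.Injective f) (hρ : ∀ s v, ρ s v = act (f s) v) (h1 : cf (f (ph 0 x5)) = 48)
    (h3 : cf (f (ph 2 x5)) = 68) {U : Submodule F2 L2} (hU : Inv (opR ρ sg 14) U) (h0 : U ≠ ⊥) :
    Fixd f ∨ Has (opR ρ sg 14) U 8 G1 ∨ Has (opR ρ sg 14) U 8 G2 ∨ Has (opR ρ sg 14) U 16 G4 ∨ Has (opR ρ sg 14) U 32 G5 := by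
  obtain ⟨J, hJ, hH, n, hn1, hn⟩ := soc44 (good ρ) (dim_L2 f).le hU h0
  have h := sol_mem hf hρ hn
  simp only [SOL, List.mem_cons, Prod.mk.injEq, List.cons.injEq, and_true, List.not_mem_nil, or_false] at h
  have h4 : n 3 = 0 ∧ n 6 = 0 ∧ n 7 = 0 ∧ n 8 = 0 := by
    rcases h with h | h | h | h | h | h <;> obtain ⟨⟨-, -, -, a3, -, -, a6, a7, a8⟩, -, -, c, d, -, -⟩ := h <;> omega
  interval_cases J
  · exact Or.inl (fixd_of_has hρ hH)
  · exact Or.inr (Or.inl hH)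
  · exact Or.inr (Or.inr (Or.inl hH))
  · omega
  · exact Or.inr (Or.inr (Or.inr (Or.inl hH)))
  · exact Or.inr (Or.inr (Or.inr (Or.inr hH)))
  · omega
  · omega
  · omega

end Cfsg.Agent.E82.M44
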