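import Cfsg.Agent.E82.Mach.Main

/-!
# The pressure machine for `Sp₄(4)`: weight vectors (helper79)

The letters `0, …, 7` are the negative root elements, the letters `8, …, 13` are the simple positive root elements and
two generators of the torus.

* `Blk`, `WV` : a weight vector `x` with a second vector `h x`; `gen4` : they generate under the negative root elements;
* `iso4` : uniqueness; `exists_wv` : existence; `tb_iso` : the comparison with a table.
-/

set_option autoImplicit false

namespace Cfsg.Agent.E82.M44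

open Module Cfsg.Agent.E82.Mach

/-- the members of a list selected by the bits of a number -/
noncomputable def sel {α : Type} (L : List α) : ℕ → List α :=
  List.rec (motive := fun _ => ℕ → List α) (fun _ => [])
    (fun x _ ih m => cond (tb m 0) (x :: ih (Nat.shiftRight m 1)) (ih (Nat.shiftRight m 1))) L

theorem mem_sel {α : Type} {L : List α} {m : ℕ} {x : α} (h : x ∈ sel L m) : x ∈ L := by
  induction L generalizing m with
  | nil => exact h
  | cons y L ih =>
    have h' : x ∈ cond (tb m 0) (y :: sel L (m >>> 1)) (sel L (m >>> 1)) := h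
    cases e : tb m 0 with
    | false => rw [e] at h'; exact List.mem_cons_of_mem _ (ih h')
    | true =>
      rw [e] at h'
      rcases List.mem_cons.1 h' with rfl | h'
      · exact List.mem_cons_self
      · exact List.mem_cons_of_mem _ (ih h')

/-- a block: the letters of a radical, representatives, the letters which normalise the radical -/
structure Blk where
  /-- the letters of the radical -/
  R : List ℕ
  /-- the representatives -/
  Y : List (List ℕ)
  /-- the normalising letters with the conjugates of the letters of the radical -/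
  gs : List (ℕ × List (List ℕ))

/-- the relations that are used -/
def Blk.rels (b : Blk) : List (List ℕ × List ℕ) :=
  b.gs.flatMap fun g => b.R.map fun r => ([g.1, r], g.2.getD r [] ++ [g.1])

/-- the shape of a block -/
def Blk.syn (b : Blk) : Bool :=
  inR 8 b.R && (b.gs.all fun g => b.R.all fun r => (g.2.getD r []).all fun t => b.R.contains t) &&
    ((List.range 8).all fun j => b.R.contains j || (b.gs.map Prod.fst).contains j) && b.Y.contains [] && b.Y.all (inR 8)

/-- the words of the generating vectors -/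
def Blk.S (b : Blk) (h : List ℕ) : List (List ℕ) := b.Y.flatMap fun y => [y, y ++ h]

/-- the images of the generating vectors -/
noncomputable def Blk.veq (b : Blk) (h : List ℕ) (M : ℕ) : List (List ℕ × List (List ℕ)) :=
  b.gs.flatMap fun g => (List.range (b.S h).length).map fun i =>
    (g.1 :: (b.S h).getD i [], sel (b.S h) (Nat.shiftRight M (Nat.mul 8 (Nat.add (Nat.mul 8 g.1) i))))

/-- the shape of the blocks -/
def synOk (bs : List Blk) : Bool :=
  bs.all Blk.syn && (List.range 6).all fun i => bs.any fun b => (b.gs.map Prod.fst).contains (8 + i)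

section

variable {V V' : Type*} [AddCommGroup V] [Module F2 V] [AddCommGroup V'] [Module F2 V']

/-- a weight vector -/
structure WV (bs : List Blk) (h : List ℕ) (M : ℕ) (a : ℕ → End F2 V) (x : V) : Prop where
  rel : ∀ p ∈ bs.flatMap Blk.rels, wd a p.1 = wd a p.2
  out : ∀ j, 14 ≤ j → a j = 0
  vec : ∀ q ∈ bs.flatMap fun b => b.veq h M, wd a q.1 x = sumW a q.2 x

theorem sumW_mem {a : ℕ → End F2 V} {L : List (List ℕ)} {x : V} {N : Submodule F2 V} (h : ∀ w ∈ L, wd a w x ∈ N) :
    sumW a L x ∈ N := by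
  induction L with
  | nil => exact N.zero_mem
  | cons w L ih =>
    rw [sumW_cons]
    exact N.add_mem (h w List.mem_cons_self) (ih fun u hu => h u (List.mem_cons_of_mem _ hu))

theorem blk_inv {b : Blk} (hs : b.syn = true) {h : List ℕ} {M : ℕ} {a : ℕ → End F2 V} {x : V}
    (hr : ∀ p ∈ b.rels, wd a p.1 = wd a p.2) (hv : ∀ q ∈ b.veq h M, wd a q.1 x = sumW a q.2 x) {j : ℕ}
    (hj : j ∈ b.gs.map Prod.fst) {v : V} (hx : v ∈ sp a (· < 8) {x, wd a h x}) : a j v ∈ sp a (· < 8) {x, wd a h x} := by
  simp only [Blk.syn, Bool.and_eq_true, List.all_eq_true, List.mem_range, Bool.or_eq_true, List.contains_iff_mem] at hs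
  obtain ⟨⟨⟨⟨s1, s2⟩, s3⟩, s4⟩, s5⟩ := hs
  have m1 : ∀ s ∈ b.S h, wd a s x ∈ sp a (· ∈ b.R) {v | ∃ s ∈ b.S h, v = wd a s x} := fun s hs => mem_sp ⟨s, hs, rfl⟩
  have n1 : ∀ j ∈ b.gs.map Prod.fst, ∀ v ∈ sp a (· ∈ b.R) {v | ∃ s ∈ b.S h, v = wd a s x},
      a j v ∈ sp a (· ∈ b.R) {v | ∃ s ∈ b.S h, v = wd a s x} := by
    intro j hj v hv'
    obtain ⟨g, hg, rfl⟩ := List.mem_map.1 hj
    refine sp_norm (fun r hr' => ⟨g.2.getD r [], s2 g hg r hr', fun v => ?_⟩) ?_ hv'
    · have := LinearMap.congr_fun (hr _ (List.mem_flatMap.2 ⟨g, hg, List.mem_map.2 ⟨r, hr', rfl⟩⟩)) v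
      rwa [wd_append_apply, wd_cons_apply, wd_single, wd_single] at this
    · rintro _ ⟨s, hs, rfl⟩
      obtain ⟨i, hi, rfl⟩ := List.getElem_of_mem hs
      have := hv _ (List.mem_flatMap.2 ⟨g, hg, List.mem_map.2 ⟨i, List.mem_range.2 hi, rfl⟩⟩)
      rw [wd_cons_apply, List.getD_eq_getElem _ _ hi] at this
      rw [this]
      exact sumW_mem fun w hw => m1 w (mem_sel hw)
  have l1 : sp a (· < 8) {x, wd a h x} ≤ sp a (· ∈ b.R) {v | ∃ s ∈ b.S h, v = wd a s x} := by
    refine sp_le ?_ fun t ht v hv' => ?_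
    · rintro s (rfl | rfl)
      · exact m1 [] (List.mem_flatMap.2 ⟨[], s4, List.mem_cons_self⟩)
      · exact m1 h (List.mem_flatMap.2 ⟨[], s4, List.mem_cons_of_mem _ List.mem_cons_self⟩)
    · rcases s3 t ht with e | e
      · exact sp_inv (A := (· ∈ b.R)) e hv'
      · exact n1 t e v hv'
  have l2 : sp a (· ∈ b.R) {v | ∃ s ∈ b.S h, v = wd a s x} ≤ sp a (· < 8) {x, wd a h x} := by
    refine sp_le ?_ fun t ht v hv' => sp_inv (A := (· < 8)) (inR_lt s1 t ht) hv'
    rintro _ ⟨s, hs, rfl⟩
    obtain ⟨y, hy, hs⟩ := List.mem_flatMap.1 hs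
    rcases List.mem_cons.1 hs with rfl | hs
    · exact sp_wd (inR_lt (s5 _ hy)) (mem_sp (Set.mem_insert _ _))
    · rw [List.mem_singleton.1 hs, wd_append_apply]
      exact sp_wd (inR_lt (s5 _ hy)) (mem_sp (Set.mem_insert_of_mem _ rfl))
  exact l2 (n1 j hj v (l1 hx))

/-- the two vectors generate an invariant subspace under the negative root elements -/
theorem gen4 {bs : List Blk} (hs : synOk bs = true) {h : List ℕ} {M : ℕ} {a : ℕ → End F2 V} {x : V} (hx : WV bs h M a x) :
    Inv a (sp a (· < 8) {x, wd a h x}) := by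
  intro j v hv
  by_cases h1 : j < 8
  · exact sp_inv (A := (· < 8)) h1 hv
  by_cases h2 : 14 ≤ j
  · rw [hx.out j h2]; exact zero_mem _
  obtain ⟨i, rfl⟩ : ∃ i, j = 8 + i := ⟨j - 8, by omega⟩
  simp only [synOk, Bool.and_eq_true, List.all_eq_true, List.mem_range, List.any_eq_true, List.contains_iff_mem] at hs
  obtain ⟨b, hb, hj⟩ := hs.2 i (by omega)
  exact blk_inv (hs.1 b hb) (fun p hp => hx.rel p (List.mem_flatMap.2 ⟨b, hb, hp⟩))
    (fun q hq => hx.vec q (List.mem_flatMap.2 ⟨b, hb, hq⟩)) hj hv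

theorem sumW_prod (a : ℕ → End F2 V) (b : ℕ → End F2 V') (L : List (List ℕ)) (x : V) (y : V') :
    sumW (prodOp a b) L (x, y) = (sumW a L x, sumW b L y) := by
  induction L with
  | nil => rfl
  | cons w L ih => rw [sumW_cons, sumW_cons, sumW_cons, ih, wd_prodOp]; rfl

theorem WV.prod {bs : List Blk} {h : List ℕ} {M : ℕ} {a : ℕ → End F2 V} {b : ℕ → End F2 V'} {x : V} {y : V'}
    (h1 : WV bs h M a x) (h2 : WV bs h M b y) : WV bs h M (prodOp a b) (x, y) where
  rel p hp := LinearMap.ext fun q => by rw [wd_prodOp, wd_prodOp, h1.rel p hp, h2.rel p hp]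
  out j hj := by rw [prodOp, h1.out j hj, h2.out j hj, LinearMap.prodMap_zero]
  vec q hq := by rw [wd_prodOp, sumW_prod, ← h1.vec q hq, ← h2.vec q hq]

/-- **uniqueness** -/
theorem iso4 {bs : List Blk} (hs : synOk bs = true) {h : List ℕ} {M : ℕ} {a : ℕ → End F2 V} {b : ℕ → End F2 V'} {x : V}
    {y : V'} {l : V →ₗ[F2] F2} {l' : V' →ₗ[F2] F2} (h1 : WV bs h M a x) (h2 : WV bs h M b y)
    (i1 : ∀ j < 8, ∀ v, l (a j v) = l v) (i2 : ∀ j < 8, ∀ v, l' (b j v) = l' v) (e1 : l x = l' y)
    (e2 : l (wd a h x) = l' (wd b h y)) (hi : Irr a x l) (hi' : Irr b y l') : ∃ e : V ≃ₗ[F2] V', Hom a b e := by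
  have hN := gen4 hs (h1.prod h2)
  have hm : (x, y) ∈ sp (prodOp a b) (· < 8) {(x, y), wd (prodOp a b) h (x, y)} := mem_sp (Set.mem_insert _ _)
  have hk : sp (prodOp a b) (· < 8) {(x, y), wd (prodOp a b) h (x, y)} ≤
      LinearMap.eqLocus (l ∘ₗ LinearMap.fst F2 V V') (l' ∘ₗ LinearMap.snd F2 V V') := by
    refine sp_le ?_ fun j hj q hq => (i1 j hj q.1).trans (Eq.trans hq (i2 j hj q.2).symm)
    rintro s (rfl | rfl)
    · exact e1
    · rw [wd_prodOp]; exact e2
  obtain ⟨e, he, -⟩ := iso_of_graph hN (hi.1 _ (hN.map (b := a) fun _ _ => rfl) ⟨_, hm, rfl⟩)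
    (hi'.1 _ (hN.map (b := b) fun _ _ => rfl) ⟨_, hm, rfl⟩)
    (hi.2 _ (hN.comap (a := a) fun j v => Prod.ext rfl (map_zero (b j)).symm) fun v hv =>
      Eq.trans (hk hv) (map_zero l'))
    (hi'.2 _ (hN.comap (a := b) fun j v => Prod.ext (map_zero (a j)).symm rfl) fun v hv =>
      Eq.trans (Eq.symm (hk hv)) (map_zero l))
  exact ⟨e, he⟩

theorem irr_of {a : ℕ → End F2 V} (h : Simple a) {x : V} {l : V →ₗ[F2] F2} (hx : x ≠ 0) (hl : l ≠ 0) : Irr a x l := by
  refine ⟨fun W hW hm => (h.2 W hW).resolve_left fun e => hx ?_, fun W hW hm => (h.2 W hW).resolve_right fun e => hl ?_⟩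
  · rwa [e, Submodule.mem_bot] at hm
  · exact LinearMap.ext fun v => hm v (e ▸ Submodule.mem_top)

end

/-! ### certificates -/

/-- evaluate a list of words first -/
noncomputable def forceLL {α : Type} (l : List (List ℕ)) : (List (List ℕ) → α) → α :=
  List.rec (motive := fun _ => (List (List ℕ) → α) → α) (fun k => k [])
    (fun x _ ih k => forceL x fun y => ih fun l' => k (y :: l')) l

theorem forceLL_eq {α : Type} (l : List (List ℕ)) (k : List (List ℕ) → α) : forceLL l k = k l := by
  induction l generalizing k with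
  | nil => rfl
  | cons x l ih => exact (forceL_eq x fun y => forceLL l fun l' => k (y :: l')).trans (ih _)

/-- the pairs are the digits of `c`, the positions are collected in `m` -/
noncomputable def zAux (ok : List ℕ → List ℕ → Bool) (ys L : List (List ℕ)) (n f : ℕ) : ℕ → ℕ → Bool :=
  Nat.rec (motive := fun _ => ℕ → ℕ → Bool) (fun _ m => Nat.beq m (Nat.sub (Nat.pow 2 n) 1))
    (fun _ ih c m => force (Nat.land c 1023) fun i => force (Nat.land (Nat.shiftRight c 10) 1023) fun j =>
      Nat.blt i n && (Nat.blt j n && (ok (L.getD i []) (L.getD j [] ++ flat ys (sel [0, 1, 2, 3, 4, 5, 6, 7]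
        (Nat.shiftRight c 20))) && force (Nat.shiftRight c 28) fun c' =>
          force (Nat.xor (Nat.xor m (Nat.pow 2 i)) (Nat.pow 2 j)) (ih c')))) f

/-- the words cancel in pairs -/
noncomputable def zN (ok : List ℕ → List ℕ → Bool) (ys L : List (List ℕ)) (c : ℕ) : Bool :=
  forceLL L fun L' => force L'.length fun n => zAux ok ys L' n (Nat.div n 2) c 0

/-- a sum of translates of equations -/
noncomputable def cmb (E P : List (List (List ℕ))) (f : ℕ) : ℕ → List (List ℕ) :=
  Nat.rec (motive := fun _ => ℕ → List (List ℕ)) (fun _ => [])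
    (fun _ ih A => Nat.rec (motive := fun _ => List (List ℕ)) []
      (fun _ _ => (E.getD (Nat.land A 7) []).map (((P.getD 0 []).getD (Nat.land (Nat.shiftRight A 3) 127) []) ++ ·) ++
        ih (Nat.shiftRight A 10)) A) f

/-- two lists are related member by member -/
noncomputable def all2 {α β : Type} (p : α → β → Bool) (l : List α) : List β → Bool :=
  List.rec (motive := fun _ => List β → Bool) (fun _ => true)
    (fun x _ ih l' => List.rec (motive := fun _ => Bool) false (fun y t _ => p x y && ih t) l') l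

theorem all2_mem {α β : Type} {p : α → β → Bool} {l : List α} {l' : List β} (h : all2 p l l' = true) {x : α} (hx : x ∈ l) :
    ∃ y, p x y = true := by
  induction l generalizing l' with
  | nil => exact absurd hx List.not_mem_nil
  | cons z l ih =>
    cases l' with
    | nil => exact absurd h Bool.false_ne_true
    | cons y t =>
      have h' : (p z y && all2 p l t) = true := h
      rw [Bool.and_eq_true] at h'
      rcases List.mem_cons.1 hx with rfl | hx
      · exact ⟨y, h'.1⟩
      · exact ih h'.2 hx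

section

variable {V : Type*} [AddCommGroup V] [Module F2 V]

theorem sum_pow (F : ℕ → V) {n i : ℕ} (hi : i < n) : ∑ k ∈ Finset.range n, bt (2 ^ i) k • F k = F i := by
  rw [Finset.sum_eq_single i (fun k _ hk => by rw [bt_two_pow, if_neg (Ne.symm hk), zero_smul])
    (fun h => absurd (Finset.mem_range.2 hi) h), bt_two_pow, if_pos rfl, one_smul]

theorem sum_xor (F : ℕ → V) (n m m' : ℕ) : ∑ k ∈ Finset.range n, bt (m ^^^ m') k • F k =
    ∑ k ∈ Finset.range n, bt m k • F k + ∑ k ∈ Finset.range n, bt m' k • F k := by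
  rw [← Finset.sum_add_distrib]
  exact Finset.sum_congr rfl fun k _ => by rw [bt_xor, add_smul]

theorem sumW_range (a : ℕ → End F2 V) (L : List (List ℕ)) (v : V) :
    sumW a L v = ∑ k ∈ Finset.range L.length, wd a (L.getD k []) v := by
  induction L with
  | nil => rfl
  | cons w L ih => rw [sumW_cons, List.length_cons, Finset.sum_range_succ', ih, add_comm]; rfl

theorem zAux_sound {ok : List ℕ → List ℕ → Bool} {a : ℕ → End F2 V} (ha : Snd ok a) {ys L : List (List ℕ)} {v : V}
    (hv : v ∈ FixL a ys) {n f c m : ℕ} (h : zAux ok ys L n f c m = true)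
    (hm : ∑ k ∈ Finset.range n, bt m k • wd a (L.getD k []) v = 0) : ∑ k ∈ Finset.range n, wd a (L.getD k []) v = 0 := by
  induction f generalizing c m with
  | zero =>
    have e : m = 2 ^ n - 1 := Nat.eq_of_beq_eq_true h
    rw [← hm, e]
    exact Finset.sum_congr rfl fun k hk => by rw [bt_mask, if_pos (Finset.mem_range.1 hk), one_smul]
  | succ f ih =>
    have h' : (force (c &&& 1023) fun i => force ((c >>> 10) &&& 1023) fun j =>
      Nat.blt i n && (Nat.blt j n && (ok (L.getD i []) (L.getD j [] ++ flat ys (sel [0, 1, 2, 3, 4, 5, 6, 7]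
        (c >>> 20))) && force (c >>> 28) fun c' => force ((m ^^^ 2 ^ i) ^^^ 2 ^ j) (zAux ok ys L n f c')))) = true := h
    rw [force_eq, force_eq, force_eq, force_eq, Bool.and_eq_true, Bool.and_eq_true, Bool.and_eq_true, Nat.blt_eq,
      Nat.blt_eq] at h'
    refine ih h'.2.2.2 ?_
    rw [sum_xor, sum_xor, hm, sum_pow _ h'.1, sum_pow _ h'.2.1, zero_add, ha _ _ h'.2.2.1, wd_append_apply, wd_flat hv,
      add_self']

theorem zN_sound {ok : List ℕ → List ℕ → Bool} {a : ℕ → End F2 V} (ha : Snd ok a) {ys L : List (List ℕ)} {c : ℕ}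
    (h : zN ok ys L c = true) {v : V} (hv : v ∈ FixL a ys) : sumW a L v = 0 := by
  rw [zN, forceLL_eq, force_eq] at h
  rw [sumW_range]
  exact zAux_sound ha hv h (Finset.sum_eq_zero fun k _ => by rw [bt_zero, zero_smul])

theorem cmb_sound {a : ℕ → End F2 V} {E : List (List (List ℕ))} {v : V} (hE : ∀ L ∈ E, sumW a L v = 0)
    (P : List (List (List ℕ))) (f A : ℕ) : sumW a (cmb E P f A) v = 0 := by
  induction f generalizing A with
  | zero => rfl
  | succ f ih =>
    cases A with
    | zero => rfl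
    | succ A =>
      have e : cmb E P (f + 1) (A + 1) = (E.getD ((A + 1) &&& 7) []).map
        (((P.getD 0 []).getD (((A + 1) >>> 3) &&& 127) []) ++ ·) ++ cmb E P f ((A + 1) >>> 10) := rfl
      rw [e, sumW_append, ih, add_zero, sumW_map]
      by_cases hi : (A + 1) &&& 7 < E.length
      · rw [List.getD_eq_getElem _ _ hi, hE _ (List.getElem_mem hi), map_zero]
      · rw [List.getD_eq_default _ _ (not_lt.1 hi), sumW_nil, map_zero]

end

/-- the sums of words which define the operators -/
def EX : List (List (List ℕ)) :=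
  [[[0], [8, 0], [9, 0], [8, 9, 0]], [[2], [10, 2], [11, 2], [10, 11, 2]], [[], [12], [12, 12]], [[], [13], [13, 13]],
    [[], [12, 13], [12, 12, 13, 13]], [[], [12, 13, 13], [12, 12, 13]]]

/-- the expansion of a word in the operators -/
noncomputable def exp (w : List ℕ) : List (List ℕ) :=
  List.rec (motive := fun _ => List (List ℕ)) [[]] (fun i _ ih => (EX.getD i [[]]).flatMap fun p => ih.map (p ++ ·)) w

/-- the equations of a common eigenvector -/
def EQ (P : ℕ) : List (List (List ℕ)) := (List.range 6).map fun k => EX.getD k [[]] ++ cond (tb P k) [[]] []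

/-- a sum of words vanishes on a common eigenvector -/
noncomputable def eqOk (ok : List ℕ → List ℕ → Bool) (ys pre : List (List ℕ)) (P : ℕ) (L : List (List ℕ)) (c : ℕ × ℕ) : Bool :=
  zN ok ys (L ++ cmb (EQ P) [pre] 100 c.1) c.2

/-- the certificates for the existence of a common eigenvector -/
structure Ex4 where
  /-- the chain of the positive root elements -/
  cpos : List (List ℕ × List ℕ × List (List ℕ))
  /-- the chain of the negative root elements -/
  cneg : List (List ℕ × List ℕ × List (List ℕ))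
  /-- the operators preserve the fixed space -/
  stab : List (List ℕ)
  /-- the relations of the operators -/
  rules : List ((List ℕ × List ℕ) × ℕ)
  /-- the normal forms -/
  tab : List (List ℕ × List (ℕ × ℕ))
  /-- the translations -/
  pre : List (List ℕ)
  /-- the patterns of the types -/
  pat : List ℕ
  /-- the other patterns do not occur -/
  zc : List (ℕ × ℕ)

/-- the positive root elements -/
def Ex4.ys (ex : Ex4) : List (List ℕ) := ex.cpos.map Prod.fst

/-- the check of the certificates -/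
noncomputable def exOk4 (ok : List ℕ → List ℕ → Bool) (bs : List Blk) (ex : Ex4) : Bool :=
  ((bs.flatMap Blk.rels).all fun p => ok p.1 p.2) && chainOk ok ex.cpos &&
    chainOk (fun w w' => ok w.reverse w'.reverse) ex.cneg &&
    ((List.range 8).all fun j => (ex.cneg.map Prod.fst).contains [j]) &&
    ((List.range 6).all fun i => (List.range ex.ys.length).all fun t =>
      zN ok ex.ys ((exp [i]).map (ex.ys.getD t [] ++ ·) ++ exp [i]) ((ex.stab.getD i []).getD t 0)) &&
    (ex.rules.all fun p => zN ok ex.ys (exp p.1.1 ++ exp p.1.2) p.2) && tabOk 6 (ex.rules.map Prod.fst) ex.tab &&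
    (List.range 64).all fun P => ex.pat.contains P || eqOk ok ex.ys ex.pre P [[]] (ex.zc.getD P (0, 0))

/-- the check of a type -/
noncomputable def tyOk (ok : List ℕ → List ℕ → Bool) (bs : List Blk) (ex : Ex4) (P : ℕ) (h : List ℕ) (M : ℕ)
    (cs : List (ℕ × ℕ)) : Bool :=
  all2 (fun q c => eqOk ok ex.ys ex.pre P (q.1 :: q.2) c) (bs.flatMap fun b => b.veq h M) cs

section

variable {V : Type*} [AddCommGroup V] [Module F2 V]

/-- the operators -/
def TT (a : ℕ → End F2 V) : ℕ → End F2 V := fun i => ((EX.getD i [[]]).map (wd a)).sum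

theorem sum_apply (a : ℕ → End F2 V) (L : List (List ℕ)) (v : V) : (L.map (wd a)).sum v = sumW a L v := by
  induction L with
  | nil => rfl
  | cons w L ih => rw [List.map_cons, List.sum_cons, LinearMap.add_apply, ih, sumW_cons]

theorem sumW_flat (a : ℕ → End F2 V) (P L : List (List ℕ)) (v : V) :
    sumW a (P.flatMap fun p => L.map (p ++ ·)) v = sumW a P (sumW a L v) := by
  induction P with
  | nil => rfl
  | cons p P ih => rw [List.flatMap_cons, sumW_append, ih, sumW_map, sumW_cons]

theorem wd_TT (a : ℕ → End F2 V) (w : List ℕ) (v : V) : wd (TT a) w v = sumW a (exp w) v := by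
  induction w with
  | nil => exact (add_zero v).symm
  | cons i w ih =>
    have e : exp (i :: w) = (EX.getD i [[]]).flatMap fun p => (exp w).map (p ++ ·) := rfl
    rw [wd_cons_apply, ih, e, sumW_flat, TT, sum_apply]

/-- a common eigenvector with the pattern `P` -/
structure EV (ex : Ex4) (P : ℕ) (a : ℕ → End F2 V) (x : V) : Prop where
  fix : x ∈ FixL a ex.ys
  eq : ∀ L ∈ EQ P, sumW a L x = 0

theorem EV.zero {ok : List ℕ → List ℕ → Bool} {ex : Ex4} {P : ℕ} {a : ℕ → End F2 V} (ha : Snd ok a) {x : V}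
    (hx : EV ex P a x) {L : List (List ℕ)} {c : ℕ × ℕ} (h : eqOk ok ex.ys ex.pre P L c = true) : sumW a L x = 0 := by
  have e := zN_sound ha h hx.fix
  rwa [sumW_append, cmb_sound hx.eq, add_zero] at e

theorem exists_ev {ok : List ℕ → List ℕ → Bool} {bs : List Blk} {ex : Ex4} (h : exOk4 ok bs ex = true) {a : ℕ → End F2 V}
    (ha : Snd ok a) (h0 : ∃ v : V, v ≠ 0) : (∃ P ∈ ex.pat, ∃ x, x ≠ 0 ∧ EV ex P a x) ∧
      ∃ l : V →ₗ[F2] F2, l ≠ 0 ∧ ∀ j < 8, ∀ v, l (a j v) = l v := by
  classical
  simp only [exOk4, Bool.and_eq_true, List.all_eq_true, List.mem_range, List.contains_iff_mem, Bool.or_eq_true] at h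
  obtain ⟨⟨⟨⟨⟨⟨⟨-, h3⟩, h4⟩, h5⟩, h6⟩, h7⟩, h8⟩, h9⟩ := h
  have hQ : ∀ i v, v ∈ FixL a ex.ys → TT a i v ∈ FixL a ex.ys := by
    intro i v hv y hy
    by_cases hi : i < 6
    · obtain ⟨t, ht, rfl⟩ := List.getElem_of_mem hy
      have e := zN_sound ha (h6 i hi t ht) hv
      rw [sumW_append, sumW_map, ← wd_TT, wd_single, List.getD_eq_getElem _ _ ht] at e
      exact eq_of_add_eq_zero' e
    · have e : TT a i v = v := by
        rw [TT, List.getD_eq_default _ _ (not_lt.1 hi : EX.length ≤ i), sum_apply]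
        exact add_zero v
      rw [e]
      exact hv y hy
  obtain ⟨v, hv, hv0⟩ := chain ha h0 h3
  obtain ⟨m, hm, hm0, hT⟩ := eigen hQ (fun p hp v hv => by
    obtain ⟨q, hq, rfl⟩ := List.mem_map.1 hp
    have e := zN_sound ha (h7 q hq) hv
    rw [sumW_append, ← wd_TT, ← wd_TT] at e
    exact Or.inl (eq_of_add_eq_zero' e)) h8 hv hv0
  have hE : EV ex (Nat.ofBits fun i : Fin 6 => decide (TT a i m = m)) a m := by
    refine ⟨hm, fun L hL => ?_⟩
    obtain ⟨k, hk, rfl⟩ := List.mem_map.1 hL
    have hk' := List.mem_range.1 hk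
    rw [sumW_append, ← sum_apply, tb_eq, Nat.testBit_ofBits_lt _ _ hk']
    by_cases e : TT a k m = m
    · rw [decide_eq_true e, cond_true, sumW_cons, sumW_nil, add_zero, wd_nil_apply]
      exact (congrArg (· + m) e).trans (add_self' m)
    · rw [decide_eq_false e, cond_false, sumW_nil, add_zero]
      exact (hT k hk').resolve_right e
  obtain ⟨l, hl0, hl⟩ := dchain ha h0 h4
  refine ⟨⟨_, (h9 _ (Nat.ofBits_lt_two_pow _)).resolve_right fun e => hm0 ?_, m, hm0, hE⟩, l, hl0, fun j hj v => ?_⟩
  · have := hE.zero ha e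
    rwa [sumW_cons, sumW_nil, add_zero] at this
  · have := hl _ (h5 j hj) v
    rwa [List.reverse_singleton, wd_single] at this

theorem EV.wv {ok : List ℕ → List ℕ → Bool} {bs : List Blk} {ex : Ex4} (h : exOk4 ok bs ex = true) {a : ℕ → End F2 V}
    (ha : Good ok 14 a) {P : ℕ} {w : List ℕ} {M : ℕ} {cs : List (ℕ × ℕ)} (ht : tyOk ok bs ex P w M cs = true) {x : V}
    (hx : EV ex P a x) : WV bs w M a x := by
  simp only [exOk4, Bool.and_eq_true, List.all_eq_true] at h
  refine ⟨fun p hp => ha.rel _ _ (h.1.1.1.1.1.1.1 p hp), ha.out, fun q hq => ?_⟩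
  obtain ⟨c, hc⟩ := all2_mem ht hq
  have e := hx.zero ha.rel hc
  rw [sumW_cons] at e
  exact eq_of_add_eq_zero' e

end

/-! ### tables -/

/-- the image of a vector under a word -/
noncomputable def actW (G : List (List (ℕ × ℕ))) (w : List ℕ) (v : ℕ) : ℕ :=
  List.rec (motive := fun _ => ℕ) v (fun j _ r => force r (actJ G j)) w

theorem actW_spec {n : ℕ} {G : List (List (ℕ × ℕ))} (h : wfG n G = true) (w : List ℕ) {v : ℕ} (hv : Sm n v) :
    Sm n (actW G w v) ∧ bv n (actW G w v) = wd (ops n G) w (bv n v) := by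
  induction w with
  | nil => exact ⟨hv, rfl⟩
  | cons j w ih =>
    have e : actW G (j :: w) v = actJ G j (actW G w v) := force_eq _ _
    rw [e, wd_cons_apply, ← ih.2]
    exact actJ_spec h j ih.1

/-- the image of a vector under a sum of words -/
noncomputable def actS (G : List (List (ℕ × ℕ))) (L : List (List ℕ)) (v : ℕ) : ℕ :=
  List.rec (motive := fun _ => ℕ) 0 (fun w _ r => Nat.xor (actW G w v) r) L

theorem actS_spec {n : ℕ} {G : List (List (ℕ × ℕ))} (h : wfG n G = true) (L : List (List ℕ)) {v : ℕ} (hv : Sm n v) :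
    bv n (actS G L v) = sumW (ops n G) L (bv n v) := by
  induction L with
  | nil => exact bv_zero n
  | cons w L ih =>
    have e : actS G (w :: L) v = actW G w v ^^^ actS G L v := rfl
    rw [e, bv_xor, ih, (actW_spec h w hv).2, sumW_cons]

/-- the vector `x` of a table is a weight vector with the values `c`, `c'`, the word `u` leads back -/
noncomputable def vecOk (bs : List Blk) (h : List ℕ) (M : ℕ) (G : List (List (ℕ × ℕ))) (w u : List ℕ) (c c' : Bool) : Bool :=
  force (actW G w 1) fun x => Nat.beq (actW G u x) 1 && (tb x 0 == c) && (tb (actW G h x) 0 == c') &&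
    (bs.flatMap fun b => b.veq h M).all fun q => Nat.beq (actW G q.1 x) (actS G q.2 x)

/-- the check of a table without the relations -/
noncomputable def tbOk (bs : List Blk) (h : List ℕ) (M n : ℕ) (G : List (List (ℕ × ℕ))) : Bool :=
  wfG n G && Nat.blt 0 n && Nat.beq G.length 14 && ((List.range 8).all fun j => Nat.beq (actJ (trG G) j 1) 1) &&
    cond (h == []) (vecOk bs h M G [] [] true true)
      (vecOk bs h M G [] [] true false && vecOk bs h M G h (h ++ h) false true && vecOk bs h M G (h ++ h) h true true)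

/-- the check of some of the relations -/
noncomputable def relOk (bs : List Blk) (n : ℕ) (G : List (List (ℕ × ℕ))) (i k : ℕ) : Bool :=
  (((bs.flatMap Blk.rels).drop i).take k).all fun p => okT n G p.1 p.2

/-- the relations from `i` on hold -/
def Rel (bs : List Blk) (n : ℕ) (G : List (List (ℕ × ℕ))) (i : ℕ) : Prop :=
  ∀ p ∈ (bs.flatMap Blk.rels).drop i, okT n G p.1 p.2 = true

theorem Rel.step {bs : List Blk} {n : ℕ} {G : List (List (ℕ × ℕ))} {i k : ℕ} (h1 : relOk bs n G i k = true)
    (h2 : Rel bs n G (i + k)) : Rel bs n G i := by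
  intro p hp
  rw [← List.take_append_drop k ((bs.flatMap Blk.rels).drop i), List.mem_append, List.drop_drop] at hp
  rcases hp with hp | hp
  · exact List.all_eq_true.1 h1 p hp
  · exact h2 p hp

theorem Rel.last {bs : List Blk} {n : ℕ} {G : List (List (ℕ × ℕ))} {i : ℕ} (h : (bs.flatMap Blk.rels).length ≤ i) :
    Rel bs n G i := by
  intro p hp
  rw [List.drop_eq_nil_of_le h] at hp
  exact absurd hp List.not_mem_nil

theorem bt_cond (v : ℕ) {c : Bool} (h : tb v 0 = c) : bt v 0 = cond c 1 0 := by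
  rw [tb_eq] at h
  cases c
  · exact bt_false h
  · exact bt_true h

/-- **a simple family with a weight vector is the family of the table** -/
theorem tb_iso {bs : List Blk} (hs : synOk bs = true) {h : List ℕ} {M n : ℕ} {G : List (List (ℕ × ℕ))}
    (h1 : tbOk bs h M n G = true) (h2 : Rel bs n G 0) {p1 p2 : List (ℕ × ℕ)} (h3 : spinOk n G p1 = true)
    (h4 : spinOk n (trG G) p2 = true) {V : Type*} [AddCommGroup V] [Module F2 V] {a : ℕ → End F2 V} (ha : Simple a) {x : V}
    (hx : x ≠ 0) (hw : WV bs h M a x) {l : V →ₗ[F2] F2} (hl : l ≠ 0) (hi : ∀ j < 8, ∀ v, l (a j v) = l v) :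
    ∃ e : V ≃ₗ[F2] X n, Hom a (ops n G) e := by
  simp only [tbOk, Bool.and_eq_true, List.all_eq_true, List.mem_range, Nat.blt_eq, Nat.beq_eq] at h1
  obtain ⟨⟨⟨⟨hG, hn⟩, h14⟩, h6⟩, h7⟩ := h1
  have s1 := sm_one hn
  have key : ∀ w u c c', vecOk bs h M G w u c c' = true → l x = cond c 1 0 → l (wd a h x) = cond c' 1 0 →
      ∃ e : V ≃ₗ[F2] X n, Hom a (ops n G) e := by
    intro w u c c' hv e1 e2
    rw [vecOk, force_eq] at hv
    simp only [Bool.and_eq_true, List.all_eq_true, Nat.beq_eq, beq_iff_eq] at hv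
    obtain ⟨⟨⟨v1, v2⟩, v3⟩, v4⟩ := hv
    have s2 := (actW_spec hG w s1).1
    refine iso4 hs (y := bv n (actW G w 1)) (l' := co n 0) hw ⟨fun p hp => okT_sound hG (h2 p hp),
      fun j hj => ops_out n G (h14 ▸ hj), fun q hq => ?_⟩ hi (fun j hj v => ?_) ?_ ?_ (irr_of ha hx hl)
      ⟨fun W hW hm => spin_sound hG h3 hW ?_, fun W hW hm => dspin_sound hG h4 hW hm⟩
    · rw [← (actW_spec hG _ s2).2, v4 q hq, actS_spec hG _ s2]
    · rw [co_eq_dot, co_eq_dot, ← ops_tr, pow_zero, ← (actJ_spec (wfG_tr hG) j s1).2, h6 j hj]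
    · rw [e1, co_bv hn, bt_cond _ v2]
    · rw [e2, ← (actW_spec hG _ s2).2, co_bv hn, bt_cond _ v3]
    · rw [← v1, (actW_spec hG _ s2).2]
      exact hW.wd _ hm
  have hne : ¬ (l x = 0 ∧ l (wd a h x) = 0) := by
    rintro ⟨e1, e2⟩
    have e3 : sp a (· < 8) {x, wd a h x} = ⊤ := (irr_of ha hx hl).1 _ (gen4 hs hw) (mem_sp (Set.mem_insert _ _))
    have e4 : sp a (· < 8) {x, wd a h x} ≤ LinearMap.ker l := by
      refine sp_le ?_ fun j hj v hv => (hi j hj v).trans hv
      rintro s (rfl | rfl)
      · exact e1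
      · exact e2
    rw [e3] at e4
    exact hl (LinearMap.ext fun v => e4 Submodule.mem_top)
  cases e : h == [] with
  | true =>
    rw [e, cond_true] at h7
    have e0 : wd a h x = x := by rw [beq_iff_eq.1 e]; rfl
    have e1 : l x = 1 := (f2_cases _).resolve_left fun e1 => hne ⟨e1, by rw [e0, e1]⟩
    exact key _ _ _ _ h7 e1 (by rw [e0, e1]; rfl)
  | false =>
    rw [e, cond_false, Bool.and_eq_true, Bool.and_eq_true] at h7
    rcases f2_cases (l x) with e1 | e1 <;> rcases f2_cases (l (wd a h x)) with e2 | e2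
    · exact absurd ⟨e1, e2⟩ hne
    · exact key _ _ _ _ h7.1.2 e1 e2
    · exact key _ _ _ _ h7.1.1 e1 e2
    · exact key _ _ _ _ h7.2 e1 e2

end Cfsg.Agent.E82.M44
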